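import Cfsg.Agent.H417.RecogMathieu
import Cfsg.Agent.H852.IMMathieu
import Cfsg.Agent.H221.TwFSplit

/-!
# Degrees divisible by 4: `M22`, `M24` and the Tits group (helper221)
-/

set_option autoImplicit false

namespace Cfsg.Agent.H221.FourIM

open Cfsg Cfsg.Agent.H33

theorem im4_M22 {S : Type*} [Group S] (h : Cfsg.Spor.IsoM22 S) : IM 4 S := by
  have h1 := H417.RecogMathieu.isM22 h
  have h2 : 0 < Nat.card S := by rw [h1.2]; norm_num
  have := Nat.finite_of_card_ne_zero h2.ne'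
  obtain ⟨f, hf⟩ := H417.DegMTwentyTwo.exists_enum h1
  refine ⟨f 9, ?_⟩
  rw [hf 9]
  decide

theorem im4_M24 {S : Type*} [Group S] (h : Cfsg.Spor.IsoM24 S) : IM 4 S := by
  obtain ⟨e⟩ := h
  refine IM.of_equiv e ?_
  refine H852.IMMathieu.im_perm_four M24 Set.univ ?_ 5 ?_ (by norm_num) (n := 24) ?_ (by norm_num) ?_
  · intro g _ x _
    trivial
  · intro x y _ _
    obtain ⟨g, hg⟩ := Cfsg.Agent.SporadicStructure.M23Index253.exists_map Cfsg.Agent.S0366.result le_rfl _ _
      x.injective y.injective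
    exact ⟨(g : Equiv.Perm GolayPt), g.2, hg⟩
  · rw [Nat.card_coe_set_eq, Set.ncard_univ, Nat.card_eq_fintype_card]
    decide
  · decide

theorem im4_Tits {S : Type*} [Group S] (h : Cfsg.Lie.IsoTits S) : IM 4 S :=
  TwFSplit.im4_Tits h

end Cfsg.Agent.H221.FourIM
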