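import Cfsg.Agent.Cit.Nil.CVA2.BenSyl

/-!
# Involutions in a Sylow 2-subgroup of `Sz(q)` are central in it (helper221, for S3217)
-/

set_option autoImplicit false

namespace Cfsg.Agent.H221

/-- All elements of square one of a Sylow 2-subgroup of `Sz(q)` are central in it. -/
theorem sz_inv {M : Type*} [Group M] [Finite M] (hs : Cfsg.Lie.IsoSuzuki M) (S : Sylow 2 M) {t : M} (ht : t ∈ S)
    (h2 : t * t = 1) : ∀ s ∈ S, s * t = t * s := by
  obtain ⟨F, _, _, m, hm, hF, ⟨e⟩⟩ := hs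
  intro s hs
  have h := (Cfsg.Agent.Cit.Nil.CVA2.benS_of_sz hm hF e S).1 ⟨t, ht⟩ ⟨s, hs⟩ (Subtype.ext h2)
  exact (congrArg Subtype.val h).symm

end Cfsg.Agent.H221
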