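import Cfsg.Agent.TitsK.RankRK
import Cfsg.Agent.TypeD4Two.FieldIso

/-!
# Almost simple groups with socle the Tits group and even index are `²F₄(2)` (helper221, for S3217)
-/

set_option autoImplicit false

namespace Cfsg.Agent.H221.TitsAut

open Subgroup Cfsg Cfsg.Lie Cfsg.Lie.ChevalleyDatum
open Cfsg.Agent.TypeD4Two.FieldIso (mapW genSubgroup_map map_injective')
open Cfsg.Agent.TitsK

section Congr

variable {F K : Type*} [Field F] [Field K] (σ : F ≃+* K)

theorem f4Words_map (e : ℕ) : mapW σ '' f4Words F e = f4Words K e := by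
  apply Set.eq_of_subset_of_subset
  · rintro _ ⟨w, hw, rfl⟩
    rcases hw with ⟨t, rfl | rfl⟩ | ⟨t, u, rfl | rfl⟩
    · exact Or.inl ⟨σ t, Or.inl (by simp [mapW, f4PairWord])⟩
    · exact Or.inl ⟨σ t, Or.inr (by simp [mapW, f4PairWord])⟩
    · exact Or.inr ⟨σ t, σ u, Or.inl (by simp [mapW, b2ClassWord])⟩
    · exact Or.inr ⟨σ t, σ u, Or.inr (by simp [mapW, b2ClassWord])⟩
  · rintro w hw
    rcases hw with ⟨t, rfl | rfl⟩ | ⟨t, u, rfl | rfl⟩
    · exact ⟨f4PairWord e f4p1 f4p4 (σ.symm t), Or.inl ⟨σ.symm t, Or.inl rfl⟩, by simp [mapW, f4PairWord]⟩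
    · exact ⟨f4PairWord e f4m1 f4m4 (σ.symm t), Or.inl ⟨σ.symm t, Or.inr rfl⟩, by simp [mapW, f4PairWord]⟩
    · exact ⟨b2ClassWord e f4a f4b f4ab f4aab (σ.symm t) (σ.symm u), Or.inr ⟨σ.symm t, σ.symm u, Or.inl rfl⟩,
        by simp [mapW, b2ClassWord]⟩
    · exact ⟨b2ClassWord e f4ma f4mb f4mab f4maab (σ.symm t) (σ.symm u), Or.inr ⟨σ.symm t, σ.symm u, Or.inr rfl⟩,
        by simp [mapW, b2ClassWord]⟩

/-- `²F₄` over isomorphic fields. -/
noncomputable def twEquiv (e : ℕ) : ↥(twistedF4 F e) ≃* ↥(twistedF4 K e) :=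
  ((twistedF4 F e).equivMapOfInjective _ (map_injective' σ chevF4)).trans
    (MulEquiv.subgroupCongr (by
      unfold twistedF4
      rw [genSubgroup_map, f4Words_map]))

end Congr

theorem equiv_HT {K : Type*} [Field K] [Fintype K] (hK : Fintype.card K = 2) :
    Nonempty (↥HT ≃* ↥(Cfsg.Lie.twistedF4 K 1)) := by
  have h2 : Fintype.card (ZMod 2) = Fintype.card K := by rw [hK, ZMod.card]
  have σ : ZMod 2 ≃+* K := FiniteField.ringEquivOfCardEq h2
  have e1 : ↥HT ≃* ↥(HT.map (chevF4.group (ZMod 2)).subtype) :=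
    HT.equivMapOfInjective _ (Subgroup.subtype_injective _)
  exact ⟨(e1.trans (MulEquiv.subgroupCongr map_HT)).trans (twEquiv σ 1)⟩

theorem tits_aut {G : Type*} [Group G] [Finite G] {M : Subgroup G} (hM : M.Normal)
    (hc : Subgroup.centralizer (M : Set G) = ⊥) (hT : Cfsg.Lie.IsoTits ↥M) (h2 : 2 ∣ M.index)
    {K : Type*} [Field K] [Fintype K] (m : ℕ) (hm : m = 0) (hK : Fintype.card K = 2 ^ (2 * m + 1)) :
    Nonempty (G ≃* ↥(Cfsg.Lie.twistedF4 K (2 ^ m))) := by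
  subst hm
  rw [pow_zero]
  obtain ⟨e⟩ := equiv_HT (K := K) (by rw [hK]; norm_num)
  have hle : M.index ≤ 2 := index_le hT M ⟨MulEquiv.refl _⟩ hc
  have hne : M.index ≠ 0 := Subgroup.index_ne_zero_of_finite
  have hi : M.index = 2 := by
    obtain ⟨k, hk⟩ := h2
    omega
  obtain ⟨f⟩ := hT
  obtain ⟨e0⟩ := exists_equiv
  obtain ⟨Φ, hinj, hH⟩ := tdata.exists_embed M ⟨f.trans e0⟩ hc
  have hcard : Nat.card G = Nat.card ↥HT := by
    rw [← M.card_mul_index, hi, Nat.card_congr (f.trans e0).toEquiv]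
    exact card_of_relIndex TT_le 2 relIndex_TT
  have hr : Φ.range = HT := by
    have h1 : Φ.range ≤ HT := by
      rintro _ ⟨x, rfl⟩
      exact hH x
    refine Subgroup.eq_of_le_of_card_ge h1 ?_
    rw [← hcard]
    exact (Nat.card_congr (Φ.ofInjective hinj).toEquiv).le
  exact ⟨((Φ.ofInjective hinj).trans (MulEquiv.subgroupCongr hr)).trans e⟩

end Cfsg.Agent.H221.TitsAut
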